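import Cfsg.Agent.ChevalleyStructure.JacAll
import Cfsg.Agent.H736.Co3.Tab8

/-!
# S1920, `E₈(q)`, THETA16: the elements acting trivially on `so₁₆` (helper748)

* `sep8`, `sep80` : distinct weights of the adjoint module of `E₈` differ on a simple coroot (characteristic not 2);
* `ker8_diag` : an element of `chevE8.group F` fixing `Lp T8` is diagonal, 1 on `Lp`, a scalar `ε`, `ε² = 1`, on `L₋`;
* `ker8`, `ker8_one`.

The method is that of helper249's `ker7`.
-/

set_option autoImplicit false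
set_option Elab.async false
set_option linter.unusedSectionVars false
set_option maxRecDepth 100000

namespace Cfsg.Agent.H748.Co3.Ker8

open Cfsg Cfsg.Lie Cfsg.Lie.ChevalleyDatum
open Cfsg.Agent.ChevalleyStructure
open Cfsg.Agent.ChevalleyStructure.LieAbs Cfsg.Agent.ChevalleyStructure.Ring Cfsg.Agent.ChevalleyStructure.JacMain
  Cfsg.Agent.ChevalleyStructure.LieAut Cfsg.Agent.ChevalleyStructure.JacAll Cfsg.Agent.ChevalleyStructure.Columns
open Cfsg.Agent.H736.Co3
open Matrix

universe u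

/-! ### separation of the weights -/

/-- the values of a root on the simple coroots modulo 3 -/
def code8 (s : ℕ) : ℕ := (List.range 8).foldl (fun a j => 3 * a + ((car chevE8 j s) % 3).toNat) 0

def codes8 : List ℕ := [2, 7, 21, 63, 189, 2025, 6075, 1215, 5508, 4509, 4419, 4389, 4379, 4375, 3645, 3078, 2808, 2718, 2688, 2678, 2674,
  297, 450, 420, 410, 406, 1557, 1608, 1598, 1594, 1491, 1508, 1504, 1469, 1474, 1461, 747, 798, 788, 784, 924, 941,
  937, 902, 907, 894, 573, 590, 586, 632, 637, 624, 515, 520, 534, 495, 4623, 4640, 4636, 4682, 4687, 4674, 4808,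
  4813, 4827, 4788, 5915, 5920, 5934, 5976, 5859, 5105, 5110, 5124, 5166, 5292, 4941, 2430, 2193, 2210, 2206, 2252,
  2257, 2244, 2378, 2383, 2397, 2358, 4214, 4219, 4233, 4275, 4158, 1703, 1708, 1722, 1764, 1890, 810, 3404, 3409,
  3423, 3465, 3591, 2511, 1136, 1141, 1155, 1197, 1080, 137, 142, 156, 117, 47, 52, 39, 17, 13, 4, 8, 26, 22, 78, 68,
  64, 234, 204, 194, 190, 2160, 2070, 2040, 2030, 2026, 5022, 6210, 6120, 6090, 6080, 6076, 1620, 1350, 1260, 1230,
  1220, 1216, 5400, 5553, 5523, 5513, 5509, 4473, 4524, 4514, 4510, 4407, 4424, 4420, 4385, 4390, 4377, 4860, 2592,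
  3780, 3690, 3660, 3650, 3646, 2970, 3123, 3093, 3083, 3079, 2772, 2823, 2813, 2809, 2706, 2723, 2719, 2684, 2689,
  2676, 261, 312, 302, 298, 438, 455, 451, 416, 421, 408, 1545, 1562, 1558, 1604, 1609, 1596, 1487, 1492, 1506, 1467,
  735, 752, 748, 794, 799, 786, 920, 925, 939, 900, 569, 574, 588, 630, 513, 4619, 4624, 4638, 4680, 4806, 5913, 5103,
  2189, 2194, 2208, 2250, 2376, 4212, 1701, 3402, 1134, 135, 45, 15, 5, 1]

theorem codes8_p0 : (List.range 140).map (fun i => code8 i) = codes8.take 140 := by decide +kernel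

theorem codes8_p1 : (List.range 60).map (fun i => code8 (140 + i)) = (codes8.drop 140).take 60 := by decide +kernel

theorem codes8_p2 : (List.range 40).map (fun i => code8 (140 + 60 + i)) = codes8.drop 200 := by decide +kernel

theorem codes8_split : codes8.take 140 ++ (codes8.drop 140).take 60 ++ codes8.drop 200 = codes8 := by decide +kernel

theorem map_range_add {α : Type*} (f : ℕ → α) (a b : ℕ) :
    (List.range (a + b)).map f = (List.range a).map f ++ (List.range b).map fun i => f (a + i) := by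
  rw [List.range_add, List.map_append, List.map_map]
  rfl

theorem codes8_eq : (List.range 240).map code8 = codes8 := by
  rw [show (240 : ℕ) = 140 + 60 + 40 from rfl, map_range_add, map_range_add, codes8_p0, codes8_p1, codes8_p2,
    codes8_split]

theorem codes8_nodup : codes8.Nodup := by decide +kernel

theorem codes8_pos : ∀ c ∈ codes8, c ≠ 0 := by decide +kernel

theorem car8_p0 : ∀ j < 2, ∀ s < 240, -2 ≤ car chevE8 (2 * 0 + j) s ∧ car chevE8 (2 * 0 + j) s ≤ 2 := by
  decide +kernel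

theorem car8_p1 : ∀ j < 2, ∀ s < 240, -2 ≤ car chevE8 (2 * 1 + j) s ∧ car chevE8 (2 * 1 + j) s ≤ 2 := by
  decide +kernel

theorem car8_p2 : ∀ j < 2, ∀ s < 240, -2 ≤ car chevE8 (2 * 2 + j) s ∧ car chevE8 (2 * 2 + j) s ≤ 2 := by
  decide +kernel

theorem car8_p3 : ∀ j < 2, ∀ s < 240, -2 ≤ car chevE8 (2 * 3 + j) s ∧ car chevE8 (2 * 3 + j) s ≤ 2 := by
  decide +kernel

theorem car8_le : ∀ j < 8, ∀ s < 240, -2 ≤ car chevE8 j s ∧ car chevE8 j s ≤ 2 := by
  have h : ∀ k < 4, ∀ j < 2, ∀ s < 240, -2 ≤ car chevE8 (2 * k + j) s ∧ car chevE8 (2 * k + j) s ≤ 2 := by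
    intro k hk
    match k, hk with
    | 0, _ => exact car8_p0
    | 1, _ => exact car8_p1
    | 2, _ => exact car8_p2
    | 3, _ => exact car8_p3
    | n + 4, h => omega
  intro j hj
  have h1 := h (j / 2) (by omega) (j % 2) (by omega)
  rwa [Nat.div_add_mod j 2] at h1

theorem foldl_congr' (f g : ℕ → ℕ) : ∀ (l : List ℕ) (_ : ∀ j ∈ l, f j = g j) (a : ℕ),
    l.foldl (fun a j => 3 * a + f j) a = l.foldl (fun a j => 3 * a + g j) a
  | [], _, _ => rfl
  | j :: l, h, a => by
    rw [List.foldl_cons, List.foldl_cons, h j List.mem_cons_self]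
    exact foldl_congr' f g l (fun i hi => h i (List.mem_cons_of_mem _ hi)) _

theorem code8_getElem {s : ℕ} (hs : s < 240) : codes8[s]? = some (code8 s) := by
  rw [← codes8_eq, List.getElem?_map, List.getElem?_range hs]
  rfl

theorem code8_inj {s u : ℕ} (hs : s < 240) (hu : u < 240) (h : code8 s = code8 u) : s = u := by
  have h1 := code8_getElem hs
  have h2 := code8_getElem hu
  rw [← h] at h2
  have hlt : ∀ {s : ℕ}, s < 240 → s < codes8.length := by
    intro s hs
    by_contra hc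
    have h3 := code8_getElem hs
    rw [List.getElem?_eq_none (not_lt.1 hc)] at h3
    simp at h3
  by_contra hne
  rcases lt_or_gt_of_ne hne with hl | hl
  · exact (List.nodup_iff_getElem?_ne_getElem?.1 codes8_nodup) s u hl (hlt hu) (by rw [h1, h2])
  · exact (List.nodup_iff_getElem?_ne_getElem?.1 codes8_nodup) u s hl (hlt hs) (by rw [h1, h2])

variable {F : Type u} [Field F]

/-- integers of absolute value at most four not divisible by three are nonzero in odd characteristic -/
theorem cast_ne (h2 : (2 : F) ≠ 0) {d : ℤ} (h1 : -4 ≤ d) (h3 : d ≤ 4) (h : d % 3 ≠ 0) : (d : F) ≠ 0 := by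
  have h4 : (4 : F) ≠ 0 := by
    have : (4 : F) = 2 * 2 := by norm_num
    rw [this]; exact mul_ne_zero h2 h2
  have h5 : d = -4 ∨ d = -2 ∨ d = -1 ∨ d = 1 ∨ d = 2 ∨ d = 4 := by omega
  rcases h5 with rfl | rfl | rfl | rfl | rfl | rfl
  · rw [Int.cast_neg]; exact neg_ne_zero.2 (by exact_mod_cast h4)
  · rw [Int.cast_neg]; exact neg_ne_zero.2 (by exact_mod_cast h2)
  · rw [Int.cast_neg]; exact neg_ne_zero.2 (by simp)
  · simp
  · exact_mod_cast h2
  · exact_mod_cast h4

/-- **Separation**, two roots -/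
theorem sep8 (h2 : (2 : F) ≠ 0) {s u : ℕ} (hs : s < 240) (hu : u < 240) (hsu : s ≠ u) :
    ∃ j < 8, ((car chevE8 j s : ℤ) : F) ≠ ((car chevE8 j u : ℤ) : F) := by
  by_contra hc
  push Not at hc
  apply hsu
  refine code8_inj hs hu ?_
  unfold code8
  refine foldl_congr' _ _ _ (fun j hj => ?_) 0
  have hj := List.mem_range.1 hj
  have h1 := hc j hj
  rw [← sub_eq_zero, ← Int.cast_sub] at h1
  have h3 : (car chevE8 j s - car chevE8 j u) % 3 = 0 := by
    by_contra h
    have h4 := car8_le j hj s hs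
    have h5 := car8_le j hj u hu
    exact cast_ne h2 (by omega) (by omega) h h1
  congr 1
  omega

/-- **Separation**, a root and zero -/
theorem sep80 (h2 : (2 : F) ≠ 0) {s : ℕ} (hs : s < 240) : ∃ j < 8, ((car chevE8 j s : ℤ) : F) ≠ 0 := by
  by_contra hc
  push Not at hc
  have h0 : code8 s ≠ 0 := codes8_pos _ (List.mem_of_getElem? (code8_getElem hs))
  apply h0
  have h1 : code8 s = (List.range 8).foldl (fun a _ => 3 * a + 0) 0 := by
    unfold code8
    refine foldl_congr' _ (fun _ => 0) _ (fun j hj => ?_) 0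
    have hj := List.mem_range.1 hj
    have h1 := hc j hj
    have h3 : (car chevE8 j s) % 3 = 0 := by
      by_contra h
      have h4 := car8_le j hj s hs
      exact cast_ne h2 (by omega) (by omega) h h1
    rw [h3]; rfl
  rw [h1]; decide

/-! ### the tree of the roots of `L₋` -/

/-- `(s, a, b)` : `b = s + a`, `s` a root of `D₈`, `a, b` roots of `L₋` -/
def edges8 : List (ℕ × ℕ × ℕ) := [(141, 14, 15), (142, 14, 16), (143, 14, 17), (144, 14, 18), (145, 14, 19), (146, 14, 20), (147, 14, 21), (148, 14,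
  22), (149, 14, 23), (150, 14, 24), (151, 14, 25), (152, 14, 26), (153, 14, 27), (154, 14, 28), (155, 14, 29), (156,
  14, 30), (157, 14, 31), (158, 14, 32), (159, 14, 33), (160, 14, 34), (161, 14, 35), (233, 14, 162), (234, 14, 163),
  (235, 14, 164), (236, 14, 165), (237, 14, 166), (238, 14, 167), (239, 14, 168), (152, 15, 36), (153, 15, 37), (154,
  15, 38), (155, 15, 39), (156, 15, 40), (157, 15, 41), (158, 15, 42), (159, 15, 43), (160, 15, 44), (161, 15, 45),
  (235, 15, 169), (236, 15, 170), (237, 15, 171), (238, 15, 172), (239, 15, 173), (156, 16, 46), (157, 16, 47), (158,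
  16, 48), (159, 16, 49), (160, 16, 50), (161, 16, 51), (236, 16, 174), (237, 16, 175), (238, 16, 176), (239, 16,
  177), (159, 17, 52), (160, 17, 53), (161, 17, 54), (237, 17, 178), (238, 17, 179), (239, 17, 180), (161, 18, 55),
  (238, 18, 181), (239, 18, 182), (239, 19, 183), (156, 21, 56), (157, 21, 57), (158, 21, 58), (159, 21, 59), (160,
  21, 60), (161, 21, 61), (236, 21, 184), (237, 21, 185), (238, 21, 186), (239, 21, 187), (159, 22, 62), (160, 22,
  63), (161, 22, 64), (237, 22, 188), (238, 22, 189), (239, 22, 190), (161, 23, 65), (238, 23, 191), (239, 23, 192),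
  (239, 24, 193), (159, 26, 66), (160, 26, 67), (161, 26, 68), (237, 26, 194), (238, 26, 195), (239, 26, 196), (161,
  27, 69), (238, 27, 197), (239, 27, 198), (239, 28, 199), (161, 30, 70), (238, 30, 200), (239, 30, 201), (239, 31,
  202), (239, 33, 203), (159, 36, 71), (160, 36, 72), (161, 36, 73), (237, 36, 204), (238, 36, 205), (239, 36, 206),
  (161, 37, 74), (238, 37, 207), (239, 37, 208), (239, 38, 209), (161, 40, 75), (238, 40, 210), (239, 40, 211), (239,
  41, 212), (239, 43, 213), (161, 46, 76), (238, 46, 214), (239, 46, 215), (239, 47, 216), (239, 49, 217), (239, 52,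
  218), (161, 56, 77), (238, 56, 219), (239, 56, 220), (239, 57, 221), (239, 59, 222), (239, 62, 223), (239, 66, 224),
  (239, 71, 225)]

/-- the structure constant `N_{s,a}` read off the table at `b` -/
def nn8 (s a b : ℕ) : ℤ := ((chevE8.chainCoeff s a b).map fun km : ℕ × ℤ => if km.1 = 1 then km.2 else 0).sum

theorem edges8_ok : ∀ e ∈ edges8, e.1 < 240 ∧ e.2.1 < 240 ∧ e.2.2 < 240 ∧ T8.In e.1 = true ∧ e.2.1 ≠ e.1 ∧
    e.2.1 ≠ chevE8.negIdx.getD e.1 0 ∧ (nn8 e.1 e.2.1 e.2.2 = 1 ∨ nn8 e.1 e.2.1 e.2.2 = -1) := by decide +kernel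

/-- everything outside `T8` is reached from the root 14 -/
def reach8 : List (ℕ × ℕ × ℕ) → List ℕ → Bool
  | [], R => (List.range 240).all fun s => T8.In s || R.contains s
  | e :: l, R => R.contains e.2.1 && reach8 l (e.2.2 :: R)

theorem reach8_ok : reach8 edges8 [14] = true := by decide +kernel

theorem reach8_spec {P : ℕ → Prop} : ∀ (l : List (ℕ × ℕ × ℕ)) (R : List ℕ), (∀ e ∈ l, P e.2.1 → P e.2.2) →
    (∀ r ∈ R, P r) → reach8 l R = true → ∀ s < 240, T8.In s = false → P s
  | [], R, _, hR, h, s, hs, hs' => by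
    unfold reach8 at h
    rw [List.all_eq_true] at h
    have h1 := h s (List.mem_range.2 hs)
    rw [Bool.or_eq_true] at h1
    rcases h1 with h1 | h1
    · rw [hs'] at h1; exact absurd h1 Bool.false_ne_true
    · exact hR s (List.contains_iff_mem.1 h1)
  | e :: l, R, hl, hR, h, s, hs, hs' => by
    unfold reach8 at h
    rw [Bool.and_eq_true] at h
    refine reach8_spec l (e.2.2 :: R) (fun e' he' => hl e' (List.mem_cons_of_mem _ he')) ?_ h.2 s hs hs'
    intro r hr
    rcases List.mem_cons.1 hr with rfl | hr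
    · exact hl e List.mem_cons_self (hR _ (List.contains_iff_mem.1 h.1))
    · exact hR r hr

/-! ### the kernel -/

section Ker

theorem adR_inl8 (i : Fin chevE8.rank) :
    adR chevE8 F (Sum.inl i) = Matrix.diagonal (Sum.elim (fun _ => 0) fun s : Fin chevE8.nroots => ((car chevE8 i.val s.val : ℤ) : F)) := by
  rw [adR_def, adA_inl, adH, Matrix.diagonal_map (map_zero _)]
  congr 1
  funext j
  rcases j with j | j <;> simp

theorem neg14 : chevE8.negIdx.getD 14 0 = 225 := by decide +kernel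

theorem cor14 : (chevE8.coroot.getD 14 #[]).getD 0 0 = -1 := by decide +kernel

theorem out14 : T8.In 14 = false := by decide +kernel

theorem out225 : T8.In 225 = false := by decide +kernel

/-- the entry of `ad e₁₄` at `(h_0, e₂₂₅)` -/
theorem adR14 : adR chevE8 F (Sum.inr ⟨14, by decide⟩) (Sum.inl ⟨0, by decide⟩) (Sum.inr ⟨225, by decide⟩) = -1 := by
  rw [adR_def, Matrix.map_apply, adA_inr, coefE_entry chevE8 14 1 (by decide)]
  simp only
  rw [if_neg (by norm_num), neg14, if_pos rfl, if_pos trivial, cor14]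
  simp

/-- **An element fixing `Lp` is `1` on `Lp` and a scalar `ε`, `ε² = 1`, on `L₋`.** -/
theorem ker8_diag (h2 : (2 : F) ≠ 0) {g : GL chevE8.Idx F} (hg : g ∈ chevE8.group F)
    (h : ∀ v ∈ Lp T8 chevE8 F, (g : Matrix chevE8.Idx chevE8.Idx F) *ᵥ v = v) :
    ∃ ε : F, ε * ε = 1 ∧ (g : Matrix chevE8.Idx chevE8.Idx F) =
      Matrix.diagonal (Sum.elim (fun _ => 1) fun s : Fin chevE8.nroots => if T8.In s.val = true then 1 else ε) := by
  set C := (g : Matrix chevE8.Idx chevE8.Idx F) with hC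
  have hadv : ∀ v, C * adv (adR chevE8 F) v = adv (adR chevE8 F) (C *ᵥ v) * C := fun v =>
    group_mul_adv chevE8 (by simp) F g hg v
  have hbas : ∀ j : chevE8.Idx, C *ᵥ Pi.single j 1 = Pi.single j 1 → C * adR chevE8 F j = adR chevE8 F j * C := by
    intro j hj
    have h1 := hadv (Pi.single j 1)
    rwa [hj, adv_single_one] at h1
  have hfl : ∀ i : Fin chevE8.rank, C *ᵥ Pi.single (Sum.inl i) 1 = Pi.single (Sum.inl i) 1 := by
    intro i
    refine h _ (mem_Lp.2 fun s _ => ?_)
    rw [Pi.single_eq_of_ne (by simp)]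
  have hfr : ∀ s : Fin chevE8.nroots, T8.In s.val = true → C *ᵥ Pi.single (Sum.inr s) 1 = Pi.single (Sum.inr s) 1 := by
    intro s hs
    refine h _ (mem_Lp.2 fun t ht => ?_)
    rw [Pi.single_eq_of_ne]
    intro h'
    rw [Sum.inr_injective h', hs] at ht
    exact Bool.false_ne_true ht.symm
  have hI : ∀ i : Fin chevE8.rank, C * adR chevE8 F (Sum.inl i) = adR chevE8 F (Sum.inl i) * C := fun i => hbas _ (hfl i)
  have hE : ∀ s : Fin chevE8.nroots, T8.In s.val = true → C * adR chevE8 F (Sum.inr s) = adR chevE8 F (Sum.inr s) * C :=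
    fun s hs => hbas _ (hfr s hs)
  -- the matrix is diagonal on the root vectors
  have hent : ∀ (j k : chevE8.Idx) (i : Fin chevE8.rank),
      (Sum.elim (fun _ => (0 : F)) (fun s : Fin chevE8.nroots => ((car chevE8 i.val s.val : ℤ) : F)) j) ≠
      (Sum.elim (fun _ => (0 : F)) (fun s : Fin chevE8.nroots => ((car chevE8 i.val s.val : ℤ) : F)) k) → C j k = 0 := by
    intro j k i hne
    have h1 := congrFun (congrFun (hI i) j) k
    rw [adR_inl8, Matrix.mul_diagonal, Matrix.diagonal_mul] at h1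
    by_contra h
    exact hne (mul_right_cancel₀ h (by rw [← h1, mul_comm]))
  have hll : ∀ (j : chevE8.Idx) (i : Fin chevE8.rank), C j (Sum.inl i) = if j = Sum.inl i then 1 else 0 := by
    intro j i
    have h1 := congrFun (hfl i) j
    rw [Matrix.mulVec_single_one] at h1
    rw [← Pi.single_apply]
    exact h1
  have hrr : ∀ (j : chevE8.Idx) (s : Fin chevE8.nroots), j ≠ Sum.inr s → C j (Sum.inr s) = 0 := by
    intro j s hj
    rcases j with j | u
    · obtain ⟨i, hi, h⟩ := sep80 h2 s.2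
      exact hent _ _ ⟨i, hi⟩ (by simpa using h.symm)
    · obtain ⟨i, hi, h⟩ := sep8 h2 u.2 s.2 (fun h => hj (by rw [Fin.ext h]))
      exact hent _ _ ⟨i, hi⟩ (by simpa using h)
  set c : ℕ → F := fun s => if hs : s < 240 then C (Sum.inr ⟨s, hs⟩) (Sum.inr ⟨s, hs⟩) else 0 with hc
  have hdiag : C = Matrix.diagonal (Sum.elim (fun _ => 1) fun s : Fin chevE8.nroots => c s.val) := by
    ext j k
    rcases k with k | k
    · rw [hll, Matrix.diagonal_apply]
      by_cases h : j = Sum.inl k
      · subst h; simp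
      · rw [if_neg h, if_neg h]
    · by_cases h : j = Sum.inr k
      · subst h
        rw [Matrix.diagonal_apply_eq, Sum.elim_inr]
        exact (dif_pos (c := k.val < 240) (t := fun hs => C (Sum.inr ⟨k.val, hs⟩) (Sum.inr ⟨k.val, hs⟩)) (e := fun _ => 0) k.2).symm
      · rw [hrr j k h, Matrix.diagonal_apply_ne _ h]
  -- constant on the roots outside
  have hstep : ∀ e ∈ edges8, c e.2.1 = c 14 → c e.2.2 = c 14 := by
    intro e he h
    obtain ⟨q1, q2, q3, q4, q5, q6, q7⟩ := edges8_ok e he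
    have h1 := congrFun (congrFun (hE ⟨e.1, q1⟩ q4) (Sum.inr ⟨e.2.2, q3⟩)) (Sum.inr ⟨e.2.1, q2⟩)
    rw [hdiag, Matrix.mul_diagonal, Matrix.diagonal_mul, Sum.elim_inr, Sum.elim_inr] at h1
    have h3 : adR chevE8 F (Sum.inr ⟨e.1, q1⟩) (Sum.inr ⟨e.2.2, q3⟩) (Sum.inr ⟨e.2.1, q2⟩) = ((nn8 e.1 e.2.1 e.2.2 : ℤ) : F) := by
      rw [adR_def, Matrix.map_apply, adA_inr, coefE_entry chevE8 e.1 1 q1]
      simp only
      rw [if_neg q5, if_neg q6]
      simp [nn8]
    rw [h3] at h1
    have h4 : ((nn8 e.1 e.2.1 e.2.2 : ℤ) : F) ≠ 0 := by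
      rcases q7 with h | h <;> rw [h] <;> simp
    have h5 : c e.2.2 = c e.2.1 := mul_right_cancel₀ h4 (by rw [h1, mul_comm])
    rw [h5, h]
  have hodd : ∀ s < 240, T8.In s = false → c s = c 14 :=
    reach8_spec edges8 [14] hstep (by simp) reach8_ok
  refine ⟨c 14, ?_, ?_⟩
  · have h1 := hadv (Pi.single (Sum.inr ⟨14, by decide⟩) 1)
    have h3 : C *ᵥ Pi.single (Sum.inr ⟨14, by decide⟩ : chevE8.Idx) (1 : F) =
        c 14 • Pi.single (Sum.inr ⟨14, by decide⟩ : chevE8.Idx) (1 : F) := by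
      rw [hdiag, Matrix.diagonal_mulVec_single, mul_one, ← Pi.single_smul, smul_eq_mul, mul_one]; rfl
    rw [h3, adv_smul, adv_single_one] at h1
    have h4 := congrFun (congrFun h1 (Sum.inl ⟨0, by decide⟩)) (Sum.inr ⟨225, by decide⟩)
    rw [hdiag, Matrix.mul_diagonal, Matrix.diagonal_mul, Matrix.smul_apply, adR14, Sum.elim_inl, Sum.elim_inr] at h4
    rw [hodd 225 (by norm_num) out225] at h4
    rw [smul_eq_mul] at h4
    linear_combination h4
  · rw [hdiag]
    congr 2
    funext s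
    cases hs : T8.In s.val
    · rw [if_neg Bool.false_ne_true]
      exact hodd s.val s.2 hs
    · rw [if_pos rfl]
      have h1 := congrFun (hfr s hs) (Sum.inr s)
      rw [hdiag, Matrix.diagonal_mulVec_single, mul_one, Pi.single_eq_same, Pi.single_eq_same] at h1
      exact h1

/-- **An element fixing `Lp` is `1` or `-1` on `L₋`.** -/
theorem ker8 (h2 : (2 : F) ≠ 0) {g : GL chevE8.Idx F} (hg : g ∈ chevE8.group F)
    (h : ∀ v ∈ Lp T8 chevE8 F, (g : Matrix chevE8.Idx chevE8.Idx F) *ᵥ v = v) :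
    (∀ v : chevE8.Idx → F, (∀ i, v (Sum.inl i) = 0) → (∀ s : Fin chevE8.nroots, T8.In s = true → v (Sum.inr s) = 0) →
      (g : Matrix chevE8.Idx chevE8.Idx F) *ᵥ v = v) ∨
    (∀ v : chevE8.Idx → F, (∀ i, v (Sum.inl i) = 0) → (∀ s : Fin chevE8.nroots, T8.In s = true → v (Sum.inr s) = 0) →
      (g : Matrix chevE8.Idx chevE8.Idx F) *ᵥ v = -v) := by
  obtain ⟨ε, h1, h3⟩ := ker8_diag h2 hg h
  have key : ∀ v : chevE8.Idx → F, (∀ i, v (Sum.inl i) = 0) →
      (∀ s : Fin chevE8.nroots, T8.In s = true → v (Sum.inr s) = 0) →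
      (g : Matrix chevE8.Idx chevE8.Idx F) *ᵥ v = ε • v := by
    intro v hv hv'
    rw [h3]
    funext j
    rw [Matrix.mulVec_diagonal, Pi.smul_apply, smul_eq_mul]
    rcases j with j | j
    · rw [hv, mul_zero, mul_zero]
    · rw [Sum.elim_inr]
      cases hj : T8.In j.val
      · rw [if_neg Bool.false_ne_true]
      · rw [hv' j hj, mul_zero, mul_zero]
  rcases mul_self_eq_one_iff.1 h1 with h4 | h4
  · left
    intro v hv hv'
    rw [key v hv hv', h4, one_smul]
  · right
    intro v hv hv'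
    rw [key v hv hv', h4, neg_one_smul]

/-- **The kernel is `{1, z}`.** -/
theorem ker8_one (h2 : (2 : F) ≠ 0) {z g : GL chevE8.Idx F} (hzg : z ∈ chevE8.group F)
    (hz : ∀ v, (z : Matrix chevE8.Idx chevE8.Idx F) *ᵥ v = v ↔ v ∈ Lp T8 chevE8 F) (hg : g ∈ chevE8.group F)
    (h : ∀ v ∈ Lp T8 chevE8 F, (g : Matrix chevE8.Idx chevE8.Idx F) *ᵥ v = v) : g = 1 ∨ g = z := by
  obtain ⟨ε, h1, h3⟩ := ker8_diag h2 hg h
  obtain ⟨δ, h4, h5⟩ := ker8_diag h2 hzg fun v hv => (hz v).2 hv
  have hone : (Matrix.diagonal (Sum.elim (fun _ => 1) fun s : Fin chevE8.nroots => if T8.In s.val = true then 1 else 1) :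
      Matrix chevE8.Idx chevE8.Idx F) = 1 := by
    rw [← Matrix.diagonal_one]
    congr 1
    funext j
    rcases j with j | j <;> simp
  have hδ : δ = -1 := by
    rcases mul_self_eq_one_iff.1 h4 with h6 | h6
    · exfalso
      rw [h6, hone] at h5
      have h7 := (hz (Pi.single (Sum.inr ⟨14, by decide⟩) 1)).1 (by rw [h5, Matrix.one_mulVec])
      have h8 := mem_Lp.1 h7 ⟨14, by decide⟩ out14
      rw [Pi.single_eq_same] at h8
      exact one_ne_zero h8
    · exact h6
  rcases mul_self_eq_one_iff.1 h1 with h6 | h6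
  · left
    apply Units.ext
    rw [h3, h6, hone]; rfl
  · right
    apply Units.ext
    rw [h3, h5, h6, hδ]

end Ker

end Cfsg.Agent.H748.Co3.Ker8
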