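import Cfsg.Agent.H748.SK.HNEleven
import Cfsg.Agent.H738.C3.Tools
import Cfsg.Agent.CpAutHSFive.Row
import Cfsg.Agent.OddHalf.Small.Generic

/-!
# S1920, case B: the row `HN` (helper748)
-/

set_option autoImplicit false

open Subgroup

namespace Cfsg.Agent.H748.Co3

open Cfsg Cfsg.Agent.H738.C3 Cfsg.Agent.H13.Co3
open Cfsg.Agent.HN.Pres Cfsg.Agent.HN.H0Basic
open Cfsg.Agent.HN.XWords Cfsg.Agent.KFacts.HN Cfsg.Agent.HN.Classes Cfsg.Agent.SigZeroHN
open Cfsg.Agent.HN.HS100 (K gx_mem)

universe u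

/-- `C(2B)` is of characteristic 2 -/
theorem char_two_B {G : Type u} [Group G] [Finite G] (θ : G ≃* Spor.HN) {z : G} (hz : θ z = W0) :
    IsOfCharacteristicTwo ↥(centralizer ({z} : Set G)) := by
  let f : ↥(centralizer ({z} : Set G)) →* Spor.HN := θ.toMonoidHom.comp (centralizer ({z} : Set G)).subtype
  have hf : Function.Injective f := θ.injective.comp (centralizer ({z} : Set G)).subtype_injective
  have hP : ∀ x, f x ∈ PP := by
    intro x
    rw [mem_PP, ← hz]
    show θ (x : G) * θ z = θ z * θ (x : G)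
    rw [← map_mul, ← map_mul, mem_centralizer_singleton_iff.1 x.2]
  have hr : ∀ r ∈ RS, ∃ x, f x = r := by
    intro r hr
    have h1 := mem_PP.1 (RS_le_PP hr)
    refine ⟨⟨θ.symm r, mem_centralizer_singleton_iff.2 ?_⟩, θ.apply_symm_apply r⟩
    apply θ.injective
    rw [map_mul, map_mul, θ.apply_symm_apply, hz, h1]
  refine OddHalf.Small.Generic.of_centralizer_le (Q := RS.comap f) ⟨fun n hn g => ?_⟩
    (RS_isPGroup.comap_of_injective f hf) ?_
  · rw [mem_comap, map_mul, map_mul, map_inv]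
    exact conj_RS (hP g) hn
  · intro x hx
    rw [mem_comap]
    rcases cent_RS (x := f x) (fun y hy => by
      obtain ⟨y', rfl⟩ := hr y hy
      rw [← map_mul, ← map_mul, mem_centralizer_iff.1 hx y' hy]) with h | h
    · rw [h]; exact one_mem _
    · rw [h]; exact W0_mem_RS

/-- in `2.HS.2` -/
theorem not_h0 {N : Subgroup H0} (hN : Nat.card N = 64) {y : H0} (hy : orderOf y = 5) (hc : ∀ n ∈ N, y * n = n * y) :
    False := by
  have hfin : Finite H0 := Cfsg.Agent.HN.H0Basic.finite_H0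
  have hyK : y ∈ K := by
    have h1 : y = (y ^ 3) ^ 2 := by
      rw [← pow_mul, show 3 * 2 = 1 + 5 by norm_num, pow_add, ← hy, pow_orderOf_eq_one, mul_one, pow_one]
    rw [h1]
    exact sq_mem_K _
  obtain ⟨hcen, ⟨e⟩, -⟩ := Cfsg.Agent.HN.CoverUnique.isCover_K
  have hmem : ∀ g : K, g ∈ center K → (g : H0) = 1 ∨ (g : H0) = τ := by
    intro g hg
    rw [Cfsg.Agent.HN.DoubleCover.center_K Cfsg.Agent.HN.H0Basic.card_H0 Cfsg.Agent.HN.CoverUnique.gxne,
      MonoidHom.mem_ker] at hg
    exact φ_eq_one_iff.1 (congrArg Subtype.val hg)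
  let f : K →* Spor.HS := e.toMonoidHom.comp (QuotientGroup.mk' (center K))
  have hf1 : ∀ g : K, f g = 1 ↔ g ∈ center K := by
    intro g
    show e (QuotientGroup.mk' (center K) g) = 1 ↔ _
    rw [map_eq_one_iff e e.injective]
    exact QuotientGroup.eq_one_iff g
  have hfHS : Finite Spor.HS := Finite.of_surjective f (e.surjective.comp (QuotientGroup.mk'_surjective _))
  have h5 : Fact (Nat.Prime 5) := ⟨by norm_num⟩
  have h2 : Fact (Nat.Prime 2) := ⟨Nat.prime_two⟩
  have ho : orderOf (f ⟨y, hyK⟩) = 5 := by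
    refine orderOf_eq_prime ?_ ?_
    · rw [← map_pow]
      have h1 : (⟨y, hyK⟩ : K) ^ 5 = 1 := Subtype.ext (by rw [← hy]; exact pow_orderOf_eq_one y)
      rw [h1, map_one]
    · intro h
      have h2 : y ^ 2 = 1 := by
        rcases hmem _ ((hf1 _).1 h) with h3 | h3
        · have h4 : y = 1 := h3
          rw [h4, one_pow]
        · have h4 : y = τ := h3
          rw [h4, pow_two]
          exact emb.sq
      have h5 := orderOf_dvd_of_pow_eq_one h2
      rw [hy] at h5
      norm_num at h5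
  -- `N ∩ K`
  have hKi : K.index = 2 := Cfsg.Agent.HN.HS100.K_index
  have hτ2 : orderOf τ = 2 := orderOf_eq_prime (by rw [pow_two]; exact emb.sq) emb.ne
  let M : Subgroup K := N.subgroupOf K
  have hM : 32 ≤ Nat.card M := by
    have e1 : Nat.card (K.subgroupOf N) = Nat.card M := by
      rw [← Subgroup.card_map_of_injective (K := M) K.subtype_injective,
        ← Subgroup.card_map_of_injective (K := K.subgroupOf N) N.subtype_injective, subgroupOf_map_subtype,
        subgroupOf_map_subtype, inf_comm]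
    have e2 : (K.subgroupOf N).index ∣ 2 := by
      rw [← hKi]
      exact Subgroup.relIndex_dvd_index_of_normal K N
    have e3 := (K.subgroupOf N).card_mul_index
    rw [e1, hN] at e3
    have e4 := Nat.le_of_dvd (by norm_num) e2
    by_contra hlt
    push Not at hlt
    have e5 : Nat.card M * (K.subgroupOf N).index ≤ 31 * 2 := Nat.mul_le_mul (by omega) e4
    omega
  let f' : M →* Spor.HS := f.comp M.subtype
  have hker : Nat.card f'.ker ≤ 2 := by
    have hinj : Function.Injective (K.subtype.comp M.subtype) := K.subtype_injective.comp M.subtype_injective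
    have hle : f'.ker.map (K.subtype.comp M.subtype) ≤ zpowers τ := by
      rintro _ ⟨x, hx, rfl⟩
      rcases hmem _ ((hf1 _).1 hx) with h | h
      · show ((M.subtype x : K) : H0) ∈ zpowers τ
        rw [h]; exact one_mem _
      · show ((M.subtype x : K) : H0) ∈ zpowers τ
        rw [h]; exact mem_zpowers _
    have h1 := Subgroup.card_le_of_le hle
    rwa [Subgroup.card_map_of_injective hinj, Nat.card_zpowers, hτ2] at h1
  have hran : 16 ≤ Nat.card f'.range := by
    have h1 := f'.ker.card_mul_index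
    rw [Subgroup.index_ker] at h1
    by_contra hlt
    push Not at hlt
    have h2 : Nat.card f'.ker * Nat.card f'.range ≤ 2 * 15 := Nat.mul_le_mul hker (by omega)
    omega
  have hM2 : IsPGroup 2 M := by
    have h1 : IsPGroup 2 N := IsPGroup.of_card (n := 6) (by rw [hN]; norm_num)
    exact h1.comap_of_injective K.subtype K.subtype_injective
  have hr2 : IsPGroup 2 f'.range := by
    rw [MonoidHom.range_eq_map]
    exact (hM2.of_equiv (Subgroup.topEquiv (G := M)).symm).map f'
  obtain ⟨k, hk⟩ := IsPGroup.iff_card.1 hr2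
  have hk3 : 3 ≤ k := by
    by_contra hlt
    push Not at hlt
    have h1 : 2 ^ k ≤ 2 ^ 2 := Nat.pow_le_pow_right (by norm_num) (by omega)
    omega
  have h8 : 8 ∣ Nat.card f'.range := by
    rw [hk]
    exact pow_dvd_pow 2 hk3
  refine CpAutHSFive.not_eight (L := Spor.HS) ⟨MulEquiv.refl _⟩ ho (h8.trans (Subgroup.card_dvd_of_le ?_))
  rintro _ ⟨x, rfl⟩
  rw [mem_centralizer_singleton_iff]
  show f x * f ⟨y, hyK⟩ = f ⟨y, hyK⟩ * f x
  rw [← map_mul, ← map_mul]
  congr 1
  exact Subtype.ext (hc _ x.2).symm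

/-- **S1920, case B: no `HN`** -/
theorem row_HN {G : Type u} [Group G] [Finite G] (h : Cfsg.Spor.IsoHN G) {P N0 : Subgroup G} {z s : G}
    {ψ : ↥(normalizer (P : Set G)) →* Equiv.Perm (Fin 6)} (C : Cfsg.Agent.H13.Co3.CB P N0 z s ψ) : False := by
  obtain ⟨e⟩ := h
  have hz := orderOf_z C
  obtain ⟨y, hy, hyN⟩ := exists_five C
  have hez : orderOf (e z) = 2 := by rw [e.orderOf_eq, hz]
  have key : ∀ w : Spor.HN, IsConj (e z) w → ∃ θ : G ≃* Spor.HN, θ z = w := by
    intro w hw
    obtain ⟨g, hg⟩ := isConj_iff.1 hw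
    exact ⟨e.trans (MulAut.conj g), hg⟩
  rcases Classes.inv_class hez with h1 | h1
  · obtain ⟨θ, hθ⟩ := key _ h1
    have hN0 : ∀ n ∈ N0, θ n * Cfsg.Agent.HN.NormalH.ψ τ = Cfsg.Agent.HN.NormalH.ψ τ * θ n := by
      intro n hn
      rw [← hθ, ← map_mul, ← map_mul, ← C.s_sq, ← mul_assoc, C.s_cen n hn, mul_assoc, C.s_cen n hn, mul_assoc]
    let N1 : Subgroup H0 := (N0.map θ.toMonoidHom).comap Cfsg.Agent.HN.NormalH.ψ
    have hmap : N1.map Cfsg.Agent.HN.NormalH.ψ = N0.map θ.toMonoidHom := by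
      rw [map_comap_eq, inf_eq_right]
      rintro _ ⟨n, hn, rfl⟩
      obtain ⟨k, hk⟩ := emb.cent _ (hN0 n hn)
      exact ⟨k, hk⟩
    have hcard : Nat.card N1 = 64 := by
      rw [← Subgroup.card_map_of_injective (K := N1) emb.inj, hmap,
        Subgroup.card_map_of_injective (f := θ.toMonoidHom) θ.injective, C.card]
    have hyz : θ y * Cfsg.Agent.HN.NormalH.ψ τ = Cfsg.Agent.HN.NormalH.ψ τ * θ y := by
      rw [← hθ, ← map_mul, ← map_mul, hyN z (C.PN C.zP)]
    obtain ⟨y1, hy1⟩ := emb.cent _ hyz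
    refine not_h0 hcard (y := y1) ?_ fun n hn => ?_
    · rw [← orderOf_injective _ emb.inj, hy1, θ.orderOf_eq, hy]
    · obtain ⟨m, hm, hmn⟩ := hn
      apply emb.inj
      have hmn' : θ m = Cfsg.Agent.HN.NormalH.ψ n := hmn
      rw [map_mul, map_mul, hy1, ← hmn', ← map_mul, ← map_mul, hyN m hm]
  · obtain ⟨θ, hθ⟩ := key _ h1
    refine (conf C).not_char2_cent hyN ?_ ?_ (char_two_B θ hθ)
    · rw [hy]; decide
    · rintro rfl
      rw [orderOf_one] at hy
      omega

end Cfsg.Agent.H748.Co3
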